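import Cfsg.Agent.H43.M22Fix
import Cfsg.Agent.H89.M22.Center
import Cfsg.Agent.H97.M22.PointStab
import Cfsg.Agent.H25.M22O7.Words

/-!
Six partners of a member forming a chain span a symplectic space over two elements inside the unitary space;
the seventh partner completing the diagram of type `E₇`, the highest root of `E₆`, and the central element.
-/

set_option autoImplicit false
set_option linter.unusedSectionVars false

namespace Cfsg.Agent.H25.M22O7

open Cfsg Cfsg.Agent.H17.UPoints Cfsg.Agent.H43.FischerTwins Cfsg.Agent.H43.M22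

/-- The unit vectors over two elements. -/
def unit2 (i : Fin 6) : Fin 6 → ZMod 2 := fun j => if j = i then 1 else 0

/-- The form of the chain. -/
def form2 (a b : Fin 6 → ZMod 2) : ZMod 2 :=
  (a 0 * b 1 + a 1 * b 0) + (a 1 * b 2 + a 2 * b 1) + (a 2 * b 3 + a 3 * b 2) + (a 3 * b 4 + a 4 * b 3) +
    (a 4 * b 5 + a 5 * b 4)

/-- The vectors of the seven letters. -/
def letterV : Nat → Fin 6 → ZMod 2
  | 0 => unit2 0
  | 1 => unit2 1
  | 2 => unit2 2
  | 3 => unit2 3
  | 4 => unit2 4
  | 5 => unit2 5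
  | _ => unit2 3 + unit2 5

/-- The transvection of a letter. -/
def stepV (g : Nat) (a : Fin 6 → ZMod 2) : Fin 6 → ZMod 2 := a + form2 a (letterV g) • letterV g

/-- The vector of the highest root of `E₆`. -/
def thetaV : Fin 6 → ZMod 2 := unit2 0 + unit2 2 + unit2 4

theorem form2_self : ∀ a : Fin 6 → ZMod 2, form2 a a = 0 := by decide +kernel

theorem letterV_ne (g : Nat) : letterV g ≠ 0 := by
  unfold letterV; split <;> decide

theorem form2_letters : ∀ a : Fin 7, ∀ b : Fin 7, a ≠ b →
    (form2 (letterV a) (letterV b) = 0 ↔ adjW a b = false) := by decide +kernel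

theorem thetaV_forms : ∀ a : Fin 5, form2 thetaV (letterV a) = 0 := by decide +kernel

theorem thetaV_g : form2 thetaV (letterV 5) ≠ 0 := by decide +kernel

theorem thetaV_ne : thetaV ≠ 0 := by decide +kernel

theorem thetaW_fold : ([6, 2, 3, 1, 2, 6, 4, 3, 2, 1] : List Nat).foldr stepV (letterV 0) = thetaV := by
  decide +kernel

theorem cox_fold : ∀ i : Fin 6,
    (List.replicate 9 coxSevenW).flatten.foldr stepV (unit2 i) = unit2 i := by decide +kernel

theorem stepV_ne : ∀ a : Fin 6 → ZMod 2, a ≠ 0 → ∀ g : Fin 7, stepV g a ≠ 0 := by decide +kernel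

variable {F : Type} [Field F] [Fintype F] [DecidableEq F] {hF : Fintype.card F = 4}

/-- Adjacency of two places of the chain. -/
abbrev chainNb (i j : Fin 6) : Prop := (i : ℕ) + 1 = j ∨ (j : ℕ) + 1 = i

/-- A chain of six points scaled so that neighbours have product one. -/
structure Chain (hF : Fintype.card F = 4) (w : Fin 6 → Fin 6 → F) : Prop where
  gram : ∀ i j : Fin 6, herm (w i) (w j) = if chainNb i j then 1 else 0

/-- An element of the field with two elements inside the field. -/
def bit (x : ZMod 2) : F := if x = 0 then 0 else 1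

/-- The span over two elements. -/
def emb (w : Fin 6 → Fin 6 → F) (a : Fin 6 → ZMod 2) : Fin 6 → F :=
  (bit (a 0) : F) • w 0 + (bit (a 1) : F) • w 1 + (bit (a 2) : F) • w 2 + (bit (a 3) : F) • w 3 +
    (bit (a 4) : F) • w 4 + (bit (a 5) : F) • w 5

omit [Fintype F] [DecidableEq F] in
theorem bit_zero : (bit 0 : F) = 0 := by simp [bit]

omit [Fintype F] [DecidableEq F] in
theorem bit_one : (bit 1 : F) = 1 := by simp [bit]

omit [Fintype F] [DecidableEq F] in
theorem zmod2_cases : ∀ x : ZMod 2, x = 0 ∨ x = 1 := by decide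

omit [DecidableEq F] in
theorem bit_add (hF : Fintype.card F = 4) (x y : ZMod 2) : (bit (x + y) : F) = bit x + bit y := by
  rcases zmod2_cases x with rfl | rfl <;> rcases zmod2_cases y with rfl | rfl
  · simp [bit_zero]
  · simp [bit_zero]
  · simp [bit_zero]
  · rw [show (1 : ZMod 2) + 1 = 0 from rfl, bit_zero, bit_one, add_self hF]

omit [Fintype F] [DecidableEq F] in
theorem bit_mul (x y : ZMod 2) : (bit (x * y) : F) = bit x * bit y := by
  rcases zmod2_cases x with rfl | rfl <;> simp [bit_zero, bit_one]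

omit [Fintype F] [DecidableEq F] in
theorem bit_sq (x : ZMod 2) : (bit x : F) ^ 2 = bit x := by
  rcases zmod2_cases x with rfl | rfl <;> simp [bit_zero, bit_one]

omit [Fintype F] [DecidableEq F] in
theorem bit_eq_zero {x : ZMod 2} : (bit x : F) = 0 ↔ x = 0 := by
  rcases zmod2_cases x with rfl | rfl <;> simp [bit_zero, bit_one]

theorem emb_add (hF : Fintype.card F = 4) (w : Fin 6 → Fin 6 → F) (a b : Fin 6 → ZMod 2) :
    emb w (a + b) = emb w a + emb w b := by
  simp only [emb, Pi.add_apply, bit_add hF, add_smul]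
  abel

omit [DecidableEq F] in
theorem emb_smul (w : Fin 6 → Fin 6 → F) (x : ZMod 2) (a : Fin 6 → ZMod 2) :
    emb w (x • a) = (bit x : F) • emb w a := by
  simp only [emb, Pi.smul_apply, smul_eq_mul, bit_mul, smul_add, smul_smul]

omit [Fintype F] [DecidableEq F] in
theorem emb_unit (w : Fin 6 → Fin 6 → F) (i : Fin 6) : emb w (unit2 i) = w i := by
  fin_cases i <;> simp [emb, unit2, bit_zero, bit_one]

namespace Chain

variable {w : Fin 6 → Fin 6 → F} (C : Chain hF w)
include C

theorem gram_val (i j : Fin 6) : herm (w i) (w j) = bit (form2 (unit2 i) (unit2 j)) := by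
  have h : ∀ i j : Fin 6, form2 (unit2 i) (unit2 j) = if chainNb i j then 1 else 0 := by decide +kernel
  rw [C.gram, h]
  split <;> simp [bit_zero, bit_one]

theorem herm_emb (a b : Fin 6 → ZMod 2) : herm (emb w a) (emb w b) = bit (form2 a b) := by
  simp only [emb, herm_add_left hF, herm_add_right hF, herm_smul_left hF, herm_smul_right hF, bit_sq, C.gram]
  simp only [chainNb, Fin.val_zero, Fin.val_one, Fin.val_two, show ((3 : Fin 6) : ℕ) = 3 from rfl,
    show ((4 : Fin 6) : ℕ) = 4 from rfl, show ((5 : Fin 6) : ℕ) = 5 from rfl]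
  simp only [form2, bit_add hF, bit_mul]
  norm_num
  ring

theorem independent {c : Fin 6 → F} (h : c 0 • w 0 + c 1 • w 1 + c 2 • w 2 + c 3 • w 3 + c 4 • w 4 + c 5 • w 5 = 0)
    (i : Fin 6) : c i = 0 := by
  have key : ∀ j, herm (c 0 • w 0 + c 1 • w 1 + c 2 • w 2 + c 3 • w 3 + c 4 • w 4 + c 5 • w 5) (w j) = 0 := fun j => by
    rw [h, H89.M22.herm_zero_left]
  have k0 := key 0
  have k1 := key 1
  have k2 := key 2
  have k3 := key 3
  have k4 := key 4
  have k5 := key 5
  simp only [herm_add_left hF, herm_smul_left hF, C.gram, chainNb, Fin.val_zero, Fin.val_one, Fin.val_two,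
    show ((3 : Fin 6) : ℕ) = 3 from rfl, show ((4 : Fin 6) : ℕ) = 4 from rfl,
    show ((5 : Fin 6) : ℕ) = 5 from rfl] at k0 k1 k2 k3 k4 k5
  norm_num at k0 k1 k2 k3 k4 k5
  have e3 : c 3 = 0 := by linear_combination k2 - k0
  have e2 : c 2 = 0 := by linear_combination k3 - k5
  have e5 : c 5 = 0 := by linear_combination k4 - e3
  have e0 : c 0 = 0 := by linear_combination k1 - e2
  fin_cases i
  · exact e0
  · exact k0
  · exact e2
  · exact e3
  · exact k5
  · exact e5

theorem emb_ne {a : Fin 6 → ZMod 2} (ha : a ≠ 0) : emb w a ≠ 0 := fun h =>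
  ha (funext fun i => bit_eq_zero.1 (C.independent (c := fun i => bit (a i)) h i))

theorem iso (a : Fin 6 → ZMod 2) : herm (emb w a) (emb w a) = 0 := by
  rw [C.herm_emb, form2_self, bit_zero]

/-- The transvection of a vector over two elements moves the span as over two elements. -/
theorem act_trv (g : Nat) (a : Fin 6 → ZMod 2) :
    act (trv hF (emb w (letterV g))) (emb w a) = emb w (stepV g a) := by
  rw [trv_act hF (C.iso _), C.herm_emb, stepV, emb_add hF, emb_smul]

/-- The product of the transvections of a list of letters. -/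
theorem act_list (l : List Nat) (a : Fin 6 → ZMod 2) :
    act (l.map fun g => trv hF (emb w (letterV g))).prod (emb w a) = emb w (l.foldr stepV a) := by
  induction l with
  | nil => simp [act_one]
  | cons g l ih => rw [List.map_cons, List.prod_cons, act_mul, ih, C.act_trv, List.foldr_cons]

/-- The ninth power of the product of the seven transvections is trivial. -/
theorem cox_trivial :
    ((List.replicate 9 coxSevenW).flatten.map fun g => trv hF (emb w (letterV g))).prod = 1 := by
  obtain ⟨U, hU⟩ : ∃ U, U = ((List.replicate 9 coxSevenW).flatten.map fun g => trv hF (emb w (letterV g))).prod :=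
    ⟨_, rfl⟩
  rw [← hU]
  have hfix : ∀ i, act U (w i) = w i := fun i => by
    conv_lhs => rw [← emb_unit w i, hU, C.act_list, cox_fold i, emb_unit w i]
  have hli : LinearIndependent F w := by
    rw [Fintype.linearIndependent_iff]
    intro c hc i
    rw [Fin.sum_univ_six] at hc
    exact C.independent hc i
  have hspan : Submodule.span F (Set.range w) = ⊤ :=
    hli.span_eq_top_of_card_eq_finrank (by simp)
  refine ext_act fun x => ?_
  have hx : x ∈ Submodule.span F (Set.range w) := hspan ▸ Submodule.mem_top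
  rw [act_one]
  induction hx using Submodule.span_induction with
  | mem y hy => obtain ⟨i, rfl⟩ := hy; exact hfix i
  | zero => exact Matrix.mulVec_zero _
  | add y z _ _ hy hz => exact (Matrix.mulVec_add _ y z).trans (congrArg₂ (· + ·) hy hz)
  | smul k y _ hy => exact (Matrix.mulVec_smul _ k y).trans (congrArg (k • ·) hy)

end Chain

/-- Any chain of isotropic vectors can be scaled. -/
theorem exists_chain (v : Fin 6 → Fin 6 → F) (hiso : ∀ i, herm (v i) (v i) = 0)
    (hnb : ∀ i j, i ≠ j → (herm (v i) (v j) = 0 ↔ ¬ chainNb i j)) :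
    ∃ w : Fin 6 → Fin 6 → F, Chain hF w ∧ ∀ i, ∃ k : F, k ≠ 0 ∧ w i = k • v i := by
  have cube' : ∀ {a : F}, a ≠ 0 → a * a * a = 1 := fun ha => cube hF ha
  have hstep : ∀ i j : Fin 6, (i : ℕ) + 1 = j → ∀ a : F, a ≠ 0 → ∃ b : F, b ≠ 0 ∧
      herm (a • v i) (b • v j) = 1 := by
    intro i j hij a ha
    have hne : i ≠ j := fun e => by subst e; omega
    have hh : herm (a • v i) (v j) ≠ 0 := by
      rw [herm_smul_left hF]
      exact mul_ne_zero ha fun h => (hnb i j hne).1 h (Or.inl hij)
    refine ⟨herm (a • v i) (v j), hh, ?_⟩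
    rw [herm_smul_right hF, pow_two, cube' hh]
  obtain ⟨b1, h1, e1⟩ := hstep 0 1 rfl 1 one_ne_zero
  obtain ⟨b2, h2, e2⟩ := hstep 1 2 rfl b1 h1
  obtain ⟨b3, h3, e3⟩ := hstep 2 3 rfl b2 h2
  obtain ⟨b4, h4, e4⟩ := hstep 3 4 rfl b3 h3
  obtain ⟨b5, h5, e5⟩ := hstep 4 5 rfl b4 h4
  let k : Fin 6 → F := ![1, b1, b2, b3, b4, b5]
  have hk : ∀ i, k i ≠ 0 := fun i => by fin_cases i <;> simp [k, h1, h2, h3, h4, h5]
  have hup : ∀ i j : Fin 6, (i : ℕ) + 1 = j → herm (k i • v i) (k j • v j) = 1 := by
    intro i j hij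
    fin_cases i <;> fin_cases j <;> simp_all [k]
  refine ⟨fun i => k i • v i, ⟨fun i j => ?_⟩, fun i => ⟨k i, hk i, rfl⟩⟩
  by_cases h : chainNb i j
  · rw [if_pos h]
    rcases h with h | h
    · exact hup i j h
    · rw [← herm_conj hF, hup j i h, one_pow]
  · rw [if_neg h, herm_smul_left hF, herm_smul_right hF]
    rcases eq_or_ne i j with rfl | hne
    · rw [hiso, mul_zero, mul_zero]
    · rw [(hnb i j hne).2 h, mul_zero, mul_zero]

section members

variable {G : Type*} [Group G] [Finite G] {D : Set G} {x : G}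

/-- The member of a vector over two elements. -/
def pt2 (R : Model D x F hF) (w : Fin 6 → Fin 6 → F) (a : Fin 6 → ZMod 2) : G := R.pt (emb w a)

variable (R : Model D x F hF) {w : Fin 6 → Fin 6 → F} (C : Chain hF w)
include C

theorem pt2_mem {a : Fin 6 → ZMod 2} (ha : a ≠ 0) : pt2 R w a ∈ Sset D x :=
  R.pt_mem _ (C.emb_ne ha) (C.iso a)

theorem pt2_commute {a b : Fin 6 → ZMod 2} (ha : a ≠ 0) (hb : b ≠ 0) :
    Commute (pt2 R w a) (pt2 R w b) ↔ form2 a b = 0 := by
  rw [pt2, pt2, R.pt_commute _ _ (C.emb_ne ha) (C.iso a) (C.emb_ne hb) (C.iso b), C.herm_emb, bit_eq_zero]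

/-- Conjugation by the member of a letter. -/
theorem pt_conj_letter (hG : Cfsg.IsThreeTranspositionGroup D) (g : Nat) {v : Fin 6 → F} (hv0 : v ≠ 0)
    (hv : herm v v = 0) :
    pt2 R w (letterV g) * R.pt v * (pt2 R w (letterV g))⁻¹ = R.pt (act (trv hF (emb w (letterV g))) v) := by
  obtain ⟨a, ha, e⟩ := pt_conj hF hG R (C.emb_ne (letterV_ne g)) (C.iso _) hv0 hv
  have h0 := H97.M22.act_ne_zero (trv hF (emb w (letterV g))) hv0
  have h1 : herm (act (trv hF (emb w (letterV g))) v) (act (trv hF (emb w (letterV g))) v) = 0 := by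
    rw [herm_act, hv]
  rw [pt2, ← e, ← trv_act hF (C.iso (letterV g)) v, R.pt_smul a _ ha h0 h1]

/-- Conjugation by the product of a list of letters. -/
theorem pt_conj_list (hG : Cfsg.IsThreeTranspositionGroup D) {s : Nat → G} :
    ∀ l : List Nat, (∀ g ∈ l, s g = pt2 R w (letterV g)) → ∀ {v : Fin 6 → F}, v ≠ 0 → herm v v = 0 →
      (l.map s).prod * R.pt v * (l.map s).prod⁻¹ =
        R.pt (act (l.map fun g => trv hF (emb w (letterV g))).prod v)
  | [], _, v, _, _ => by simp [act_one]
  | g :: l, hs, v, hv0, hv => by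
    have ih := pt_conj_list hG l (fun g' hg' => hs g' (List.mem_cons_of_mem _ hg')) hv0 hv
    rw [List.map_cons, List.prod_cons, List.map_cons, List.prod_cons, act_mul,
      ← pt_conj_letter R C hG g (H97.M22.act_ne_zero _ hv0) (by rw [herm_act, hv]), ← ih,
      hs g List.mem_cons_self]
    group

/-- The highest root. -/
theorem theta_eq (hG : Cfsg.IsThreeTranspositionGroup D) {s : Nat → G}
    (hs : ∀ g, g < 7 → s g = pt2 R w (letterV g)) : thetaVal s = pt2 R w thetaV := by
  have hl : ∀ g ∈ ([6, 2, 3, 1, 2, 6, 4, 3, 2, 1] : List Nat), s g = pt2 R w (letterV g) :=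
    fun g hg => hs g (by fin_cases hg <;> norm_num)
  have h := pt_conj_list R C hG _ hl (C.emb_ne (letterV_ne 0)) (C.iso _)
  rw [C.act_list, thetaW_fold] at h
  have hinv : ∀ g, g < 7 → (s g)⁻¹ = s g := fun g hg => by
    rw [hs g hg]; exact H17.inv_self hG.1 (pt2_mem R C (letterV_ne g)).1
  rw [pt2, ← h, show R.pt (emb w (letterV 0)) = s 0 from (hs 0 (by norm_num)).symm]
  simp [thetaVal, thetaW, mul_inv_rev, mul_assoc, hinv]

/-- The central word centralises all partners. -/
theorem z_commute (hG : Cfsg.IsThreeTranspositionGroup D) {s : Nat → G}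
    (hs : ∀ g, g < 7 → s g = pt2 R w (letterV g)) {y : G} (hy : y ∈ Sset D x) : Commute (zVal s) y := by
  obtain ⟨v, hv0, hv, rfl⟩ := R.pt_surj y hy
  have hl : ∀ g ∈ (List.replicate 9 coxSevenW).flatten, s g = pt2 R w (letterV g) := fun g hg => by
    obtain ⟨l, hl, hgl⟩ := List.mem_flatten.1 hg
    rw [List.eq_of_mem_replicate hl] at hgl
    exact hs g (by fin_cases hgl <;> norm_num)
  have h := pt_conj_list R C hG _ hl hv0 hv
  rw [C.cox_trivial, act_one] at h
  have hz : zVal s = ((List.replicate 9 coxSevenW).flatten.map s).prod := by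
    rw [zVal, List.map_flatten, List.prod_flatten, List.map_replicate, List.map_replicate, List.prod_replicate]
  rw [hz]
  exact mul_inv_eq_iff_eq_mul.1 h

end members

end Cfsg.Agent.H25.M22O7
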