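import Cfsg.Agent.H25.M22O7.Form
import Cfsg.Agent.H25.M22O7.Model
import Cfsg.Agent.H25.M22O7.Points
import Cfsg.Agent.H25.M22O7.Triple
import Cfsg.Agent.H43.M22Order

/-!
Members of a group of type M(22) on the diagram with arms `b c`, `e f g`, `h i`, generating `O₇(3)`.
-/

set_option autoImplicit false

namespace Cfsg.Agent.H25.M22O7

open Cfsg Cfsg.Agent.H43.FischerTwins QuadraticMap
open Cfsg.Agent.H87.M22 (K3)

theorem chain_forms : ∀ i j : Fin 6, i ≠ j →
    (chainAdj i j = false ↔ form2 (unit2 i) (unit2 j) = 0) := by decide +kernel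

theorem six_differs : ∀ k : Fin 6, ∃ b : Fin 7,
    ¬ (form2 (letterV 6) (letterV b) = 0 ↔ form2 (letterV k) (letterV b) = 0) := by decide +kernel

theorem theta_differs : ∀ k : Fin 6, ∃ b : Fin 7,
    ¬ (form2 thetaV (letterV b) = 0 ↔ form2 (letterV k) (letterV b) = 0) := by decide +kernel

theorem letterV_unit : ∀ k : Fin 6, letterV k = unit2 k := by decide +kernel

theorem adjW_seven : ∀ a, a < 7 → (adjW a 7 = true ↔ a = 6) := by decide +kernel

theorem adjW_eight : ∀ a, a < 8 → (adjW a 8 = true ↔ a = 7) := by decide +kernel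

/-- Members on the diagram with the two relations. -/
theorem exists_config {G : Type*} [Group G] [Finite G] {D : Set G}
    (hD : Cfsg.IsThreeTranspositionGroup D) (hprim : Cfsg.IsPrimitiveUnderConj D)
    (h22 : Cfsg.IsOfTypeM22 G D) :
    ∃ s : Nat → G, (∀ g, g < 8 → s g ∈ D) ∧ Pairs s 8 ∧ (thetaVal s * s 7) ^ 3 = 1 ∧ zVal s = 1 ∧
      ¬ Commute (s 0) (s 1) := by
  classical
  have hcls := (H17.class_of_primitive hD hprim).1
  obtain ⟨F', _, _, hC⟩ := H89.M22.exists_ctx hD hprim h22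
  obtain ⟨hw, F, _, _, hF, hiso, hnc⟩ := H43.M22.local_facts hcls hprim h22
  have h22' := h22
  obtain ⟨-, x, hx, c, hc, hxc, -, c₃, hc₃, hL⟩ := h22'
  obtain ⟨R⟩ := H43.M22.exists_model hcls hprim hw hF hx (hiso x hx) (hnc x hx)
  obtain ⟨T, hT⟩ : ∃ T, T = Sset D x ∩ Sset D c := ⟨_, rfl⟩
  replace hL : Cfsg.IsProjReflectionGroupModThree (↥(Subgroup.closure T) ⧸
      Subgroup.center ↥(Subgroup.closure T)) 6 1 c₃ := by rw [hT]; exact hL
  have hTD : T ⊆ D := fun y hy => (hT ▸ hy : y ∈ Sset D x ∩ Sset D c).1.1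
  have hY := sub_group hD T hTD (fun p hp q hq => by
    rw [hT] at hp hq ⊢
    exact ⟨sset_stable hD x hp.1 hq.1, sset_stable hD c hp.2 hq.2⟩)
  obtain ⟨Q, hQ', P, hQ, hμ, hc', hPY, -, -, hPvec, hPall, hPex, hPcomm, -⟩ :=
    exists_model_det hY hc₃ hL
  obtain ⟨e, he⟩ := exists_coords Q hQ hμ hc'
  have hpol : ∀ y z, polar Q (e y) (e z) = hQ' * (2 * dot6 y z) := by
    intro y z
    rw [QuadraticMap.polar, ← map_add, he, he, he]
    simp only [dot6, Fin.sum_univ_six, Pi.add_apply]
    ring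
  have hpol0 : ∀ y z, polar Q (e y) (e z) = 0 ↔ dot6 y z = 0 := fun y z => by
    rw [hpol, mul_eq_zero, or_iff_right hc', mul_eq_zero, or_iff_right (by decide)]
  have hnorm : ∀ y, Q y = hQ' → dot6 (e.symm y) (e.symm y) = 1 := fun y hy => by
    have h := he (e.symm y)
    rw [e.apply_symm_apply, hy] at h
    exact (mul_eq_left₀ hc').1 h.symm
  choose a ha using fun k => hPall (e (chainV k)) (by rw [he, (chainV_spec k k).1, mul_one])
  have hcomm : ∀ {y z : ↥(Subgroup.closure T)}, Commute (y : G) (z : G) ↔ Commute y z :=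
    H43.FischerTwins.commute_coe
  have haT : ∀ k, (a k : G) ∈ T := fun k => (hPY _ _ (ha k)).1
  have haS : ∀ k, (a k : G) ∈ Sset D x := fun k => (hT ▸ haT k : _ ∈ Sset D x ∩ Sset D c).1
  have hpair : ∀ i j, i ≠ j → (Commute (a i : G) (a j : G) ↔ chainAdj i j = false) := by
    intro i j hij
    have hs := (chainV_spec i j).2 hij
    refine ⟨fun h => ?_, fun h => hcomm.2 ((hPcomm _ _ _ _ (ha i) (ha j)).2 (Or.inl ((hpol0 _ _).2 (hs.2 h))))⟩
    rcases (hPcomm _ _ _ _ (ha i) (ha j)).1 (hcomm.1 h) with h0 | h0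
    · exact hs.1 ((hpol0 _ _).1 h0)
    · exfalso
      have h1 : ∀ p q : Fin 6, p ≠ q → chainV p ≠ chainV q ∧ chainV p ≠ -chainV q := by decide +kernel
      rcases hPvec _ _ _ (h0 ▸ ha i) (ha j) with e1 | e1
      · exact (h1 i j hij).1 (e.injective e1).symm
      · rw [← map_neg] at e1
        exact (h1 j i hij.symm).2 (e.injective e1)
  choose v hv0 hvv hvpt using fun k => R.pt_surj _ (haS k)
  obtain ⟨w, C, hwv⟩ := exists_chain (hF := hF) v hvv fun i j hij => by
    rw [← R.pt_commute _ _ (hv0 i) (hvv i) (hv0 j) (hvv j), hvpt, hvpt, hpair i j hij]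
    simp [chainAdj, chainNb]
  have hpt : ∀ k : Fin 6, pt2 R w (letterV k) = (a k : G) := fun k => by
    obtain ⟨l, hl, hk⟩ := hwv k
    rw [letterV_unit, pt2, emb_unit, hk, R.pt_smul l _ hl (hv0 k) (hvv k), hvpt]
  let s : Nat → G := fun g => if g < 7 then pt2 R w (letterV g) else if g = 7 then c else if g = 8 then x else 1
  have hs : ∀ g, g < 7 → s g = pt2 R w (letterV g) := fun g hg => if_pos hg
  have hs7 : s 7 = c := rfl
  have hs8 : s 8 = x := rfl
  have hS : ∀ g, g < 7 → s g ∈ Sset D x := fun g hg => hs g hg ▸ pt2_mem R C (letterV_ne g)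
  have hsix : ∀ k : Fin 6, s k = (a k : G) := fun k => by rw [hs _ (by omega)]; exact hpt k
  have hcs : ∀ g, g < 6 → Commute (s g) c := fun g hg => by
    rw [show s g = (a ⟨g, hg⟩ : G) from hsix ⟨g, hg⟩]
    exact (hT ▸ haT ⟨g, hg⟩ : _ ∈ Sset D x ∩ Sset D c).2.2.2.symm
  -- no further partner of both completes the chain
  have outside : ∀ av : Fin 6 → ZMod 2, av ≠ 0 →
      (∀ k : Fin 6, ∃ b : Fin 7, ¬ (form2 av (letterV b) = 0 ↔ form2 (letterV k) (letterV b) = 0)) →
      (∀ y, dot6 y y = 1 → (∀ k : Fin 6, form2 av (letterV k) = 0 → dot6 (chainV k) y = 0) →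
        ∃ k : Fin 6, form2 av (letterV k) ≠ 0 ∧ dot6 (chainV k) y = 0) →
      (∃ k : Fin 6, form2 av (letterV k) ≠ 0) → ¬ Commute (pt2 R w av) c := by
    intro av hav hdiff hno hfar hcom
    have hmem : pt2 R w av ∈ T := (Set.ext_iff.1 hT _).2 ⟨pt2_mem R C hav, (pt2_mem R C hav).1,
      fun h => hxc (h ▸ (pt2_mem R C hav).2.2), hcom.symm⟩
    obtain ⟨A, hA⟩ : ∃ A : ↥(Subgroup.closure T), (A : G) = pt2 R w av :=
      ⟨⟨_, Subgroup.subset_closure hmem⟩, rfl⟩
    have hcomk : ∀ k : Fin 6, Commute A (a k) ↔ form2 av (letterV k) = 0 := fun k => by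
      rw [← hcomm, hA, ← hpt k, pt2_commute R C hav (letterV_ne _)]
    obtain ⟨k₁, hk₁⟩ := hfar
    obtain ⟨u, hu⟩ := hPex A (show (A : G) ∈ T by rw [hA]; exact hmem) (a k₁) (haT k₁) fun h => hk₁ ((hcomk k₁).1 h)
    obtain ⟨y, rfl⟩ := e.surjective u
    have hy : dot6 y y = 1 := by
      have h := hnorm _ (hPY _ _ hu).2
      rwa [e.symm_apply_apply] at h
    obtain ⟨k, hk, hk'⟩ := hno y hy fun k hk => by
      rcases (hPcomm _ _ _ _ (ha k) hu).1 ((hcomk k).2 hk).symm with h | h
      · exact (hpol0 _ _).1 h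
      · exfalso
        obtain ⟨b, hb⟩ := hdiff k
        apply hb
        have e1 : pt2 R w av = pt2 R w (letterV k) := by rw [← hA, ← h, hpt k]
        rw [← pt2_commute R C hav (letterV_ne _), e1, pt2_commute R C (letterV_ne _) (letterV_ne _)]
    exact hk ((hcomk k).1 ((hPcomm _ _ _ _ (ha k) hu).2 (Or.inl ((hpol0 _ _).2 hk'))).symm)
  have h6c : ¬ Commute (s 6) c := by
    rw [hs 6 (by norm_num)]
    refine outside _ (letterV_ne 6) six_differs (fun y hy h => ⟨2, by decide +kernel, ?_⟩) ⟨2, by decide +kernel⟩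
    exact no_spider_leg y hy (h 0 (by decide +kernel)) (h 1 (by decide +kernel)) (h 3 (by decide +kernel))
      (h 4 (by decide +kernel)) (h 5 (by decide +kernel))
  have hθ := theta_eq R C hD hs
  have hθc : ¬ Commute (thetaVal s) c := by
    rw [hθ]
    refine outside _ thetaV_ne theta_differs (fun y hy h => ⟨5, thetaV_g, ?_⟩) ⟨5, thetaV_g⟩
    exact no_chain_end y hy (h 0 (thetaV_forms 0)) (h 1 (thetaV_forms 1)) (h 2 (thetaV_forms 2))
      (h 3 (thetaV_forms 3)) (h 4 (thetaV_forms 4))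
  have hθrel : (thetaVal s * s 7) ^ 3 = 1 := by
    rw [hs7]
    exact H17.cube_one hD.1 (hθ ▸ pt2_mem R C thetaV_ne).1 hc hθc
  have hmemD : ∀ g, g < 9 → s g ∈ D := fun g hg => by
    rcases Nat.lt_or_ge g 7 with h | h
    · exact (hS g h).1
    · rcases (show g = 7 ∨ g = 8 by omega) with rfl | rfl
      · exact hc
      · exact hx
  have hdec : ∀ p q, p < 9 → q < 9 → p < q → (Commute (s p) (s q) ↔ adjW p q = false) := by
    intro p q hp hq hpq
    rcases Nat.lt_or_ge q 7 with h | h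
    · rw [hs p (by omega), hs q h, pt2_commute R C (letterV_ne _) (letterV_ne _)]
      exact form2_letters ⟨p, by omega⟩ ⟨q, h⟩ (fun e => by have := congrArg Fin.val e; simp only at this; omega)
    · rcases (show q = 7 ∨ q = 8 by omega) with rfl | rfl
      · rcases Nat.lt_or_ge p 6 with h6 | h6
        · exact iff_of_true (hcs p h6) (Bool.eq_false_iff.2 fun h' => by
            have := (adjW_seven p (by omega)).1 h'; omega)
        · obtain rfl : p = 6 := by omega
          exact iff_of_false h6c (by decide)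
      · rcases Nat.lt_or_ge p 7 with h7 | h7
        · exact iff_of_true (hs8 ▸ (hS p h7).2.2.symm) (Bool.eq_false_iff.2 fun h' => by
            have := (adjW_eight p (by omega)).1 h'; omega)
        · obtain rfl : p = 7 := by omega
          exact iff_of_false (fun h => hxc h.symm) (by decide)
  have hdec' : ∀ p q, p < 9 → q < 9 → p ≠ q → (Commute (s p) (s q) ↔ adjW p q = false) := by
    intro p q hp hq hne
    rcases Nat.lt_or_gt_of_ne hne with h | h
    · exact hdec p q hp hq h
    · rw [← adjW_comm p q]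
      exact ⟨fun h' => (hdec q p hq hp h).1 h'.symm, fun h' => ((hdec q p hq hp h).2 h').symm⟩
  have hP9 : Pairs s 9 := by
    refine ⟨fun g => ?_, fun p q hp hq hne hadj => (hdec' p q hp hq hne).2 hadj, fun p q hp hq hadj => ?_⟩
    · rcases Nat.lt_or_ge g 9 with h | h
      · exact H17.sq_one hD.1 (hmemD g h)
      · have : s g = 1 := by simp only [s]; rw [if_neg (by omega), if_neg (by omega), if_neg (by omega)]
        rw [this, one_mul]
    · have hne : p ≠ q := fun e => by subst e; rw [adjW_self] at hadj; exact Bool.false_ne_true hadj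
      exact H17.cube_one hD.1 (hmemD p hp) (hmemD q hq) fun h => by
        rw [(hdec' p q hp hq hne).1 h] at hadj; exact Bool.false_ne_true hadj
  have hz : zVal s = 1 := by
    rcases H89.M22.centralizer_sset hC hx (fun y hy => z_commute R C hD hs hy) with h | h
    · exact h
    · exact absurd (commute_of_collapse s hP9 hθrel (h.trans hs8.symm)).symm hxc
  exact ⟨s, fun g hg => hmemD g (by omega),
    ⟨hP9.sq, fun p q hp hq => hP9.com p q (by omega) (by omega), fun p q hp hq => hP9.braid p q (by omega) (by omega)⟩,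
    hθrel, hz, fun h => by simpa [adjW] using (hdec' 0 1 (by norm_num) (by norm_num) (by norm_num)).1 h⟩

end Cfsg.Agent.H25.M22O7
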